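import Cfsg.Agent.H942.CB.Chk
import Cfsg.Agent.H942.L7.Iface
import Cfsg.Agent.H943.SL2Fun
import Cfsg.Agent.H943.PSLHom

/-!
# `L₂(81)` in `E₈(3)` (S5921): the interface

`SL2 F` with `card F = 81`, `φ : SL2 F →* E₈(3)` with kernel the centre, `y = φ (h λ)` of order 40, `λ` a generator of
`Fˣ`, `ι : F → KK` an embedding in the algebraic closure, `ζ = ι λ ^ 2` of order 40.
-/

set_option autoImplicit false

namespace Cfsg.Agent.H525.E8L

open Matrix
open Cfsg Cfsg.Lie Cfsg.Lie.ChevalleyDatum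
open Cfsg.Agent.ChevalleyStructure Cfsg.Agent.ChevalleyStructure.Elts Cfsg.Agent.ChevalleyStructure.CoxeterGeom
  Cfsg.Agent.ChevalleyStructure.CoxeterGeomTypes Cfsg.Agent.ChevalleyStructure.NPerm
  Cfsg.Agent.ChevalleyStructure.RootVec Cfsg.Agent.ChevalleyStructure.RootVecTab
open Cfsg.Agent.Tits.Roots Cfsg.Agent.Nodes Cfsg.Agent.Nodes.Reps Cfsg.Agent.Nodes.BNOf
  Cfsg.Agent.Nodes.RGDChev
open Cfsg.Agent.KFacts.RgdChevCoord Cfsg.Agent.GpExc.Field Cfsg.Agent.BpExc.TowChev Cfsg.Agent.H129.TorusChar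
open Cfsg.Agent.H942.E8Tab Cfsg.Agent.H942.E8Alc
open Cfsg.Agent.H943.SL2Rel (h u w)

/-- `E₈(3)` -/
abbrev G8 : Type := ↥(chevE8.group (ZMod 3))

/-- the algebraic closure of the field with three elements -/
abbrev KK : Type := AlgebraicClosure (ZMod 3)

/-- `E₈` over the algebraic closure -/
abbrev GK : Type := ↥(chevE8.group KK)

/-- the embedding of `E₈(3)` in `E₈(K)` -/
noncomputable abbrev eK : G8 → GK := fun x => emb e8T.inList (algebraMap (ZMod 3) KK) x

/-- the torus data of an element of `E₈(3)` relative to a given `ζ` -/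
def TorZ (ζ : KK) (x : G8) (N : ℕ) (v : Fin 8 → ZMod N) : Prop :=
  ∃ z t : GK, z⁻¹ * eK x * z = t ∧ t ∈ TT chevE8 KK ∧ ∀ i, cX e8T t (sr i) = ζ ^ (v i).val

/-- the action of `E₈(3)` on its natural module -/
def act (g : G8) (v : chevE8.Idx → ZMod 3) : chevE8.Idx → ZMod 3 :=
  ((g : GL chevE8.Idx (ZMod 3)) : Matrix chevE8.Idx chevE8.Idx (ZMod 3)) *ᵥ v

/-- the classes of the elements of order 40 -/
def Y1 : List ℕ := [3, 0, 0, 0, 0, 1, 1, 7]
def Y2 : List ℕ := [7, 0, 0, 0, 0, 1, 2, 6]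
def Y3 : List ℕ := [5, 0, 0, 1, 0, 2, 0, 1]
def Y4 : List ℕ := [3, 0, 0, 3, 1, 0, 1, 0]
def Y5 : List ℕ := [3, 1, 1, 1, 1, 1, 1, 1]
def Y7 : List ℕ := [1, 1, 1, 1, 1, 3, 1, 2]

section

variable {F : Type} [Field F]

/-- the natural module of `E₈(3)` over the field with three elements as a representation of `SL2 F` -/
noncomputable def r3 (φ : SpecialLinearGroup (Fin 2) F →* G8) :
    Representation (ZMod 3) (SpecialLinearGroup (Fin 2) F) (chevE8.Idx → ZMod 3) :=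
  Cfsg.Agent.H943.PSLHom.rep (RingHom.id (ZMod 3)) φ

/-- the natural module over the algebraic closure as a representation of `SL2 F` -/
noncomputable def rK (φ : SpecialLinearGroup (Fin 2) F →* G8) :
    Representation KK (SpecialLinearGroup (Fin 2) F) (chevE8.Idx → KK) :=
  Cfsg.Agent.H943.PSLHom.rep (algebraMap (ZMod 3) KK) φ

/-- the group setting: `φ` maps `SL2 F` onto the generalised Fitting subgroup `S` of the maximal subgroup `H` -/
structure Setting [Fintype F] (H : Subgroup G8) (φ : SpecialLinearGroup (Fin 2) F →* G8) : Prop where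
  card : Fintype.card F = 81
  coatom : IsCoatom H
  ker : ∀ g, φ g = 1 ↔ g ∈ Subgroup.center (SpecialLinearGroup (Fin 2) F)
  le : φ.range ≤ H
  norm : ∀ g ∈ H, ∀ s ∈ φ.range, g * s * g⁻¹ ∈ φ.range
  /-- `N_G(S) = H` -/
  nrm : ∀ g : G8, (∀ s ∈ φ.range, g * s * g⁻¹ ∈ φ.range) → g ∈ H
  /-- `C_G(S) = 1` -/
  cent : ∀ g : G8, (∀ s ∈ φ.range, g * s = s * g) → g = 1
  /-- `H / S` is abelian of exponent dividing 4 -/
  comm : ∀ a ∈ H, ∀ b ∈ H, a * b * a⁻¹ * b⁻¹ ∈ φ.range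
  four : ∀ a ∈ H, a ^ 4 ∈ φ.range
  /-- the centraliser of `y = φ (h λ)` in `H` is cyclic of order dividing 80 -/
  cyc : ∀ lam : Fˣ, (∀ x, x ∈ Subgroup.zpowers lam) →
    IsCyclic ↥(H ⊓ Subgroup.centralizer {φ (h lam)}) ∧ Nat.card ↥(H ⊓ Subgroup.centralizer {φ (h lam)}) ∣ 80

end

/-! ### the statements -/

/-- GROUP (helper434): the setting exists. -/
def GroupStmt : Prop := ∀ (F : Type) [Field F] [Fintype F] (_ : Fintype.card F = 81) (H : Subgroup G8)
  (_ : Nonempty (↥(Cfsg.generalizedFittingSubgroup ↥H) ≃* ProjectiveSpecialLinearGroup (Fin 2) F)) (_ : IsCoatom H),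
  ∃ φ : SpecialLinearGroup (Fin 2) F →* G8, Setting H φ

/-- CENTRE (helper434): elements fixing a nonzero `H`-invariant space of `S`-fixed vectors are in `H`. -/
def CentreStmt : Prop := ∀ (F : Type) [Field F] [Fintype F] (H : Subgroup G8)
  (φ : SpecialLinearGroup (Fin 2) F →* G8) (_ : Setting H φ) (A : Submodule (ZMod 3) (chevE8.Idx → ZMod 3))
  (_ : A ≠ ⊥) (_ : ∀ g ∈ H, ∀ a ∈ A, act g a ∈ A) (_ : ∀ s ∈ φ.range, ∀ a ∈ A, act s a = a) (g : G8)
  (_ : ∀ a ∈ A, act g a = a), g ∈ H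

/-- CLASS (helper943): the classes of the elements of order 40. -/
def ClassStmt : Prop := ∀ (F : Type) [Field F] [Fintype F] (_ : Fintype.card F = 81) (ι : F →+* KK)
  (φ : SpecialLinearGroup (Fin 2) F →* G8)
  (_ : ∀ g, φ g = 1 ↔ g ∈ Subgroup.center (SpecialLinearGroup (Fin 2) F))
  (lam : Fˣ) (_ : ∀ x, x ∈ Subgroup.zpowers lam),
  ∃ Y ∈ [Y1, Y2, Y3, Y4, Y5, Y7], TorZ (ι lam ^ 2) (φ (h lam)) 40 (vecL 40 Y)

/-- FIX (helper525): in the first four classes `S` has a fixed vector. -/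
def FixStmt : Prop := ∀ (F : Type) [Field F] [Fintype F] (_ : Fintype.card F = 81) (ι : F →+* KK)
  (φ : SpecialLinearGroup (Fin 2) F →* G8)
  (_ : ∀ g, φ g = 1 ↔ g ∈ Subgroup.center (SpecialLinearGroup (Fin 2) F))
  (lam : Fˣ) (_ : ∀ x, x ∈ Subgroup.zpowers lam) (Y : List ℕ) (_ : Y ∈ [Y1, Y2, Y3, Y4])
  (_ : TorZ (ι lam ^ 2) (φ (h lam)) 40 (vecL 40 Y)),
  ∃ a : chevE8.Idx → ZMod 3, a ≠ 0 ∧ ∀ s ∈ φ.range, act s a = a

/-- TORUS (helper237): involutions in the centre of the centraliser of `y`. -/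
def TorusStmt : Prop := ∀ (ζ : KK) (_ : IsPrimitiveRoot ζ 40) (x : G8) (_ : x ^ 40 = 1) (Y : List ℕ)
  (_ : Y ∈ [Y1, Y2, Y4]) (_ : TorZ ζ x 40 (vecL 40 Y)),
  ∃ g : G8, g ≠ 1 ∧ g * g = 1 ∧ g ≠ x ^ 20 ∧ g * x = x * g ∧ ∀ v, act x v = v → act g v = v

/-- P3 (helper280, helper948) -/
def P3Stmt : Prop := ∀ (F : Type) [Field F] [Fintype F] (ι : F →+* KK) (H : Subgroup G8)
  (φ : SpecialLinearGroup (Fin 2) F →* G8) (_ : Setting H φ) (lam : Fˣ) (_ : ∀ x, x ∈ Subgroup.zpowers lam)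
  (_ : TorZ (ι lam ^ 2) (φ (h lam)) 40 (vecL 40 Y3))
  (_ : ∃ a : chevE8.Idx → ZMod 3, a ≠ 0 ∧ ∀ s ∈ φ.range, act s a = a), False

/-- P57 (helper288): the regular classes -/
def P57Stmt : Prop := ∀ (F : Type) [Field F] [Fintype F] (_ : Fintype.card F = 81) (ι : F →+* KK)
  (φ : SpecialLinearGroup (Fin 2) F →* G8)
  (_ : ∀ g, φ g = 1 ↔ g ∈ Subgroup.center (SpecialLinearGroup (Fin 2) F))
  (lam : Fˣ) (_ : ∀ x, x ∈ Subgroup.zpowers lam) (Y : List ℕ) (_ : Y ∈ [Y5, Y7])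
  (_ : TorZ (ι lam ^ 2) (φ (h lam)) 40 (vecL 40 Y)),
  ∃ g : G8, g ≠ 1 ∧ ∀ s ∈ φ.range, g * s = s * g

/-! ### the assembly -/

theorem act_mul (g g' : G8) (v : chevE8.Idx → ZMod 3) : act (g * g') v = act g (act g' v) := by
  unfold act
  rw [Subgroup.coe_mul, Units.val_mul, Matrix.mulVec_mulVec]

theorem act_one (v : chevE8.Idx → ZMod 3) : act 1 v = v := by
  unfold act
  rw [Subgroup.coe_one, Units.val_one, Matrix.one_mulVec]

theorem act_add (g : G8) (v v' : chevE8.Idx → ZMod 3) : act g (v + v') = act g v + act g v' := Matrix.mulVec_add _ _ _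

theorem act_smul (g : G8) (c : ZMod 3) (v : chevE8.Idx → ZMod 3) : act g (c • v) = c • act g v :=
  Matrix.mulVec_smul _ _ _

theorem r3_apply {F : Type} [Field F] (φ : SpecialLinearGroup (Fin 2) F →* G8) (g : SpecialLinearGroup (Fin 2) F)
    (v : chevE8.Idx → ZMod 3) : r3 φ g v = act (φ g) v := by
  show Matrix.toLin' ((((φ g : G8) : GL chevE8.Idx (ZMod 3)) : Matrix chevE8.Idx chevE8.Idx (ZMod 3)).map
    (RingHom.id (ZMod 3))) v = _
  rw [Matrix.toLin'_apply]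
  congr 1

/-- the vectors fixed by a subgroup -/
def fixA (S : Subgroup G8) : Submodule (ZMod 3) (chevE8.Idx → ZMod 3) where
  carrier := {a | ∀ s ∈ S, act s a = a}
  zero_mem' := fun s _ => Matrix.mulVec_zero _
  add_mem' := fun {x y} hx hy s hs => by rw [act_add, hx s hs, hy s hs]
  smul_mem' := fun c x hx s hs => by rw [act_smul, hx s hs]

theorem fixA_inv {S H : Subgroup G8} (hn : ∀ g ∈ H, ∀ s ∈ S, g * s * g⁻¹ ∈ S) :
    ∀ g ∈ H, ∀ a ∈ fixA S, act g a ∈ fixA S := by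
  intro g hg a ha s hs
  have h1 : g⁻¹ * s * g ∈ S := by
    have := hn g⁻¹ (H.inv_mem hg) s hs
    rwa [inv_inv] at this
  have h2 : s * g = g * (g⁻¹ * s * g) := by group
  rw [← act_mul, h2, act_mul, ha _ h1]

section Gen

variable {F : Type} [Field F] [Fintype F]

theorem orderOf_gen (hcard : Fintype.card F = 81) {lam : Fˣ} (hlam : ∀ x, x ∈ Subgroup.zpowers lam) :
    orderOf lam = 80 := by
  classical
  rw [orderOf_eq_card_of_forall_mem_zpowers hlam, Nat.card_eq_fintype_card, Fintype.card_units, hcard]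

theorem prim40 (hcard : Fintype.card F = 81) (ι : F →+* KK) {lam : Fˣ} (hlam : ∀ x, x ∈ Subgroup.zpowers lam) :
    IsPrimitiveRoot (ι lam ^ 2) 40 := by
  have h1 : IsPrimitiveRoot lam 80 := orderOf_gen hcard hlam ▸ IsPrimitiveRoot.orderOf lam
  have h2 : IsPrimitiveRoot (lam : F) 80 := IsPrimitiveRoot.coe_units_iff.2 h1
  exact (h2.map_of_injective ι.injective).pow (by norm_num) (by norm_num)

theorem pow_twenty {G : Type*} [Group G] {y : G} (hy : y ^ 40 = 1) : y ^ 20 * y ^ 20 = 1 := by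
  rw [← pow_add]; exact hy

theorem pow_comm' {G : Type*} [Group G] (y : G) (n : ℕ) : y ^ n * y = y * y ^ n := by
  rw [← pow_succ, ← pow_succ']

theorem y_pow (φ : SpecialLinearGroup (Fin 2) F →* G8)
    (hk : ∀ g, φ g = 1 ↔ g ∈ Subgroup.center (SpecialLinearGroup (Fin 2) F)) (hcard : Fintype.card F = 81)
    {lam : Fˣ} (hlam : ∀ x, x ∈ Subgroup.zpowers lam) : φ (h lam) ^ 40 = 1 ∧ φ (h lam) ^ 20 ≠ 1 := by
  have ho := orderOf_gen hcard hlam
  constructor
  · rw [← map_pow, ← Cfsg.Agent.H943.SL2Rel.h_pow, hk, Cfsg.Agent.H943.PSLHom.h_mem_center, ← pow_mul]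
    have := pow_orderOf_eq_one lam
    rwa [ho] at this
  · intro h0
    rw [← map_pow, ← Cfsg.Agent.H943.SL2Rel.h_pow, hk, Cfsg.Agent.H943.PSLHom.h_mem_center, ← pow_mul] at h0
    have h1 := orderOf_dvd_of_pow_eq_one h0
    rw [ho] at h1
    omega

end Gen

/-- a cyclic group has at most one involution -/
theorem invol_unique {G : Type*} [Group G] [Finite G] [IsCyclic G] {a b : G} (ha : a * a = 1) (hb : b * b = 1)
    (ha1 : a ≠ 1) (hb1 : b ≠ 1) : a = b := by
  classical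
  have := Fintype.ofFinite G
  by_contra hab
  have h1 := IsCyclic.card_pow_eq_one_le (α := G) (n := 2) (by norm_num)
  have h2 : ({1, a, b} : Finset G) ⊆ Finset.univ.filter fun x : G => x ^ 2 = 1 := by
    intro x hx
    simp only [Finset.mem_insert, Finset.mem_singleton] at hx
    rw [Finset.mem_filter]
    refine ⟨Finset.mem_univ _, ?_⟩
    rcases hx with rfl | rfl | rfl
    · exact one_pow _
    · rw [pow_two, ha]
    · rw [pow_two, hb]
  have h3 := (Finset.card_le_card h2).trans h1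
  rw [Finset.card_insert_of_notMem (by
      simp only [Finset.mem_insert, Finset.mem_singleton, not_or]
      exact ⟨ha1.symm, hb1.symm⟩), Finset.card_insert_of_notMem (by
      simp only [Finset.mem_singleton]
      exact hab), Finset.card_singleton] at h3
  omega

theorem invol_eq {G : Type*} [Group G] [Finite G] {H : Subgroup G} {y : G}
    (hc : IsCyclic ↥(H ⊓ Subgroup.centralizer {y})) {g z : G} (hg : g ∈ H) (hgy : g * y = y * g) (hz : z ∈ H)
    (hzy : z * y = y * z) (hgg : g * g = 1) (hzz : z * z = 1) (hg1 : g ≠ 1) (hz1 : z ≠ 1) : g = z := by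
  let g' : ↥(H ⊓ Subgroup.centralizer {y}) := ⟨g, hg, Subgroup.mem_centralizer_singleton_iff.2 hgy⟩
  let z' : ↥(H ⊓ Subgroup.centralizer {y}) := ⟨z, hz, Subgroup.mem_centralizer_singleton_iff.2 hzy⟩
  have e1 : g' = z' := invol_unique (Subtype.ext hgg) (Subtype.ext hzz)
    (fun h0 => hg1 (congrArg Subtype.val h0)) fun h0 => hz1 (congrArg Subtype.val h0)
  exact congrArg Subtype.val e1

/-- **the assembly** -/
theorem no_L81_of (hG : GroupStmt) (hC : CentreStmt) (hK : ClassStmt) (hF : FixStmt) (hT : TorusStmt) (h3 : P3Stmt)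
    (h57 : P57Stmt) (F : Type) [Field F] [Fintype F] (hcard : Fintype.card F = 81) (H : Subgroup G8)
    (hH : Nonempty (↥(Cfsg.generalizedFittingSubgroup ↥H) ≃* ProjectiveSpecialLinearGroup (Fin 2) F)) :
    ¬ IsCoatom H := by
  classical
  intro hmax
  obtain ⟨φ, st⟩ := hG F hcard H hH hmax
  -- the embedding
  have h3' : Fact (Nat.Prime 3) := ⟨Nat.prime_three⟩
  have hchF : CharP F 3 := by
    obtain ⟨⟨m, hm⟩, hp', hc⟩ := FiniteField.card F (ringChar F)
    rw [hcard] at hc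
    have h1 : ringChar F ∣ 3 ^ 4 := by
      rw [show (3 : ℕ) ^ 4 = 81 by norm_num, hc]
      exact dvd_pow_self _ (by simpa using hm.ne')
    have h2 := (Nat.prime_dvd_prime_iff_eq hp' Nat.prime_three).1 (hp'.dvd_of_dvd_pow h1)
    exact h2 ▸ ringChar.charP F
  let _ : Algebra (ZMod 3) F := ZMod.algebra F 3
  have hint : Algebra.IsAlgebraic (ZMod 3) F := Algebra.IsAlgebraic.of_finite (ZMod 3) F
  let ι : F →+* KK := (IsAlgClosed.lift (R := ZMod 3) (S := F) (M := KK) : F →ₐ[ZMod 3] KK).toRingHom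
  obtain ⟨lam, hlam⟩ := IsCyclic.exists_generator (α := Fˣ)
  obtain ⟨Y, hY, hTor⟩ := hK F hcard ι φ st.ker lam hlam
  set y := φ (h lam) with hy
  have hyS : y ∈ φ.range := ⟨_, rfl⟩
  obtain ⟨hy40, hy20⟩ := y_pow φ st.ker hcard hlam
  -- the centre argument
  have key : Y ∈ [Y1, Y2, Y4] → False := by
    intro hY'
    have hY4 : Y ∈ [Y1, Y2, Y3, Y4] := by
      simp only [List.mem_cons, List.not_mem_nil, or_false] at hY' ⊢
      rcases hY' with h0 | h0 | h0
      · exact Or.inl h0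
      · exact Or.inr (Or.inl h0)
      · exact Or.inr (Or.inr (Or.inr h0))
    obtain ⟨a, ha0, ha⟩ := hF F hcard ι φ st.ker lam hlam Y hY4 hTor
    obtain ⟨g, hg1, hgg, hgy, hgc, hgf⟩ := hT _ (prim40 hcard ι hlam) y hy40 Y hY' hTor
    have hgH : g ∈ H := by
      refine hC F H φ st (fixA φ.range) ?_ (fixA_inv st.norm) (fun s hs a ha => ha s hs) g fun a ha => ?_
      · intro h0
        have h1 : a ∈ fixA φ.range := ha
        rw [h0] at h1
        exact ha0 ((Submodule.mem_bot _).1 h1)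
      · exact hgf a (ha y hyS)
    obtain ⟨hcyc, -⟩ := st.cyc lam hlam
    have hyH : y ∈ H := st.le hyS
    have hy2 : y ^ 20 * y ^ 20 = 1 := pow_twenty hy40
    have hyc : y ^ 20 * y = y * y ^ 20 := pow_comm' y 20
    have hzH : y ^ 20 ∈ H := H.pow_mem hyH 20
    generalize y ^ 20 = z at hy2 hyc hzH hy20 hgy
    have h80 := invol_eq hcyc hgH hgc hzH hyc hgg hy2 hg1 hy20
    exact hgy h80
  have key57 : Y ∈ [Y5, Y7] → False := by
    intro hY'
    obtain ⟨g, hg1, hg⟩ := h57 F hcard ι φ st.ker lam hlam Y hY' hTor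
    exact hg1 (st.cent g hg)
  simp only [List.mem_cons, List.not_mem_nil, or_false] at hY key key57
  rcases hY with h0 | h0 | h0 | h0 | h0 | h0
  · exact key (Or.inl h0)
  · exact key (Or.inr (Or.inl h0))
  · subst h0
    exact h3 F ι H φ st lam hlam hTor (hF F hcard ι φ st.ker lam hlam Y3 (by simp) hTor)
  · exact key (Or.inr (Or.inr h0))
  · exact key57 (Or.inl h0)
  · exact key57 (Or.inr h0)

end Cfsg.Agent.H525.E8L
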