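import Cfsg.Agent.H525.E8L.YThree
import Cfsg.Agent.H943.TorZ

/-!
# The class `Y6` (helper525, S5921): the multiplicities of the weights of order 41
-/

set_option autoImplicit false
set_option linter.unusedSectionVars false
set_option maxRecDepth 100000

namespace Cfsg.Agent.H525.E8L

open Matrix
open Cfsg Cfsg.Lie Cfsg.Lie.ChevalleyDatum
open Cfsg.Agent.H943.SL2Rel Cfsg.Agent.H943.RepAdd Cfsg.Agent.H940.E8L
open Cfsg.Agent.H942.E8Alc Cfsg.Agent.H944.RootVals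

/-- the sixth class -/
def Y6 : List ℕ := [1, 2, 2, 1, 1, 1, 1, 1]

/-- no element of order 41 with these multiplicities (helper943) -/
def NoSixStmt : Prop := ∀ (η : KK) (_ : IsPrimitiveRoot η 41) (x : G8) (_ : x ^ 41 = 1) (v : Fin 8 → ZMod 41)
  (_ : TorZ η x 41 v) (_ : ∀ κ : ZMod 41, κ ≠ 0 → (ms chevE8 8 v).count κ = 6), False

theorem s2 : chk2 [0, 1, 0, 0, 0, 0, 0, 0, 0] [0, -1, 0, 0, 0, 0] = true := by decide +kernel
theorem s3 : chk2 [0, 0, 1, 0, 1, -1, 0, 2, 2] [0, 0, -1, 0, 0, 0] = true := by decide +kernel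
theorem s5 : chk2 [0, 0, 0, 0, 1, 0, 0, 1, 3] [0, 0, 0, 0, -1, 0] = true := by decide +kernel
theorem s6 : chk2 [0, 0, 0, 0, 0, 0, 1, 2, 0] [0, 0, 0, 0, 0, -1] = true := by decide +kernel

/-- the value of a functional of order 40 on the module -/
def tv6 (L : List ℤ) : ℤ := 8 * orbF L 0 + rsum (fun j => orbF L (2 * j)) Y6

section

variable {F : Type} [Field F] [Fintype F] [DecidableEq F] [CharP F 3] [DecidableEq KK] (hcard : Fintype.card F = 81)
  (ι : F →+* KK)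
  (φ : SpecialLinearGroup (Fin 2) F →* G8)
  (hk : ∀ g, φ g = 1 ↔ g ∈ Subgroup.center (SpecialLinearGroup (Fin 2) F))
  (lam : Fˣ) (hlam : ∀ x, x ∈ Subgroup.zpowers lam)
  {c : SpecialLinearGroup (Fin 2) F} {η : KK}

include hk hlam in
theorem six (hN : Non41 ι hcard c η) (hT : TorZ (ι lam ^ 2) (φ (h lam)) 40 (vecL 40 Y6)) :
    ∀ κ : ℕ, κ < 41 → κ ≠ 0 → Module.finrank KK (eig (rK φ) c (η ^ κ)) = 6 := by
  obtain ⟨v, hinv, hd⟩ := mult41 hcard ι φ hN
  obtain ⟨d, hdd⟩ : ∃ d : ℕ → ℕ, ∀ κ, Module.finrank KK (eig (rK φ) c (η ^ κ)) = d κ := ⟨_, fun κ => rfl⟩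
  have h3inj : Function.Injective fun a : ZMod 41 => 3 * a := by
    intro a b hab
    have h1 : ∀ a b : ZMod 41, 3 * a = 3 * b → a = b := by decide
    exact h1 a b hab
  have hd3 : ∀ κ < 41, d (3 * κ % 41) = d κ := by
    intro κ hκ
    rw [← hdd, ← hdd, hd κ hκ, hd _ (Nat.mod_lt _ (by norm_num))]
    congr 1
    · have h1 : 3 * κ % 41 = 0 ↔ κ = 0 := by omega
      simp only [h1]
    · have h1 : ((3 * κ % 41 : ℕ) : ZMod 41) = 3 * (κ : ZMod 41) := by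
        rw [ZMod.natCast_mod]
        push_cast
        rfl
      rw [h1]
      conv_lhs => rw [hinv]
      exact Multiset.count_map_eq_count' (fun a : ZMod 41 => 3 * a) (ms chevE8 8 v) h3inj (κ : ZMod 41)
  -- the value of the combined functional
  have hval : ∀ L M : List ℤ, (RF ι lam hcard hN (orbF L) (orbG M)).psi (rK φ) = tv6 L +
      (M.getD 0 0 * d 0 + 8 * (M.getD 1 0 * d 1 + M.getD 2 0 * d 2 + M.getD 3 0 * d 4 + M.getD 4 0 * d 7 +
        M.getD 5 0 * d 8)) := by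
    intro L M
    rw [RF_eq, fun_rK hcard ι φ hlam hT _ (orbF_odd _)]
    congr 1
    rw [Finset.sum_congr rfl fun κ _ => by rw [eig_cz φ hk]]
    have h1 : ∀ κ ∈ Finset.range 41, orbG M κ * (Module.finrank KK (eig (rK φ) c (η ^ κ)) : ℤ) =
        (fun o => M.getD o 0 * (d (rep41 o) : ℤ)) (orb41 κ) := by
      intro κ hκ
      rw [hdd κ, const_orb hd3 (Finset.mem_range.1 hκ)]
      rfl
    refine (Finset.sum_congr rfl h1).trans ((sum_orb fun o => M.getD o 0 * (d (rep41 o) : ℤ)).trans ?_)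
    rfl
  have hpos : ∀ L M : List ℤ, chk2 L M = true → 0 ≤ tv6 L +
      (M.getD 0 0 * d 0 + 8 * (M.getD 1 0 * d 1 + M.getD 2 0 * d 2 + M.getD 3 0 * d 4 + M.getD 4 0 * d 7 +
        M.getD 5 0 * d 8)) := by
    intro L M hLM
    rw [← hval]
    exact RF_nonneg ι hcard hlam hN (orbF L) (orbG M) (fun b hb => of_decide_eq_true (all81 hLM hb)) _ (rK φ) rfl
  have t1 : tv6 [1, 0, 0, 0, 0, 0, 0, 0, 0] = 8 := by decide +kernel
  have t2 : tv6 [0, 1, 0, 0, 0, 0, 0, 0, 0] = 48 := by decide +kernel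
  have t3 : tv6 [0, 0, 1, 0, 1, -1, 0, 2, 2] = 48 := by decide +kernel
  have t4 : tv6 [0, 0, 0, 1, 1, 0, 0, 0, 0] = 48 := by decide +kernel
  have t5 : tv6 [0, 0, 0, 0, 1, 0, 0, 1, 3] = 48 := by decide +kernel
  have t6 : tv6 [0, 0, 0, 0, 0, 0, 1, 2, 0] = 48 := by decide +kernel
  have t12 : tv6 [-1, -1, -1, -1, -1, -1, -1, -1, -1] = -248 := by decide +kernel
  have p1 := hpos _ _ c1
  have p2 := hpos _ _ s2
  have p3 := hpos _ _ s3
  have p4 := hpos _ _ c3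
  have p5 := hpos _ _ s5
  have p6 := hpos _ _ s6
  have p12 := hpos _ _ c12
  simp only [List.getD_cons_zero, List.getD_cons_succ] at p1 p2 p3 p4 p5 p6 p12
  rw [t1] at p1
  rw [t2] at p2
  rw [t3] at p3
  rw [t4] at p4
  rw [t5] at p5
  rw [t6] at p6
  rw [t12] at p12
  have q1 : d 1 = 6 := by omega
  have q2 : d 2 = 6 := by omega
  have q4 : d 4 = 6 := by omega
  have q7 : d 7 = 6 := by omega
  have q8 : d 8 = 6 := by omega
  intro κ hκ hκ0
  rw [hdd, const_orb hd3 hκ]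
  have h1 : ∀ κ < 41, κ ≠ 0 → rep41 (orb41 κ) = 1 ∨ rep41 (orb41 κ) = 2 ∨ rep41 (orb41 κ) = 4 ∨
      rep41 (orb41 κ) = 7 ∨ rep41 (orb41 κ) = 8 := by decide
  rcases h1 κ hκ hκ0 with h2 | h2 | h2 | h2 | h2 <;> rw [h2] <;> assumption

end

/-- **no class six** -/
theorem noSix_of (hS : NonSplitStmt) (h6 : NoSixStmt) : ∀ (F : Type) [Field F] [Fintype F]
    (_ : Fintype.card F = 81) (ι : F →+* KK)
    (φ : SpecialLinearGroup (Fin 2) F →* G8)
    (_ : ∀ g, φ g = 1 ↔ g ∈ Subgroup.center (SpecialLinearGroup (Fin 2) F))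
    (lam : Fˣ) (_ : ∀ x, x ∈ Subgroup.zpowers lam)
    (_ : TorZ (ι lam ^ 2) (φ (h lam)) 40 (vecL 40 Y6)), False := by
  intro F _ _ hcard ι φ hk lam hlam hT
  classical
  have hch := charP3 hcard
  obtain ⟨c, η, hN⟩ := hS F KK ι hcard
  have h1 := six hcard ι φ hk lam hlam hN hT
  have hx : (φ c) ^ 41 = 1 := by rw [← map_pow, hN.pow, map_one]
  obtain ⟨v, hv⟩ := Cfsg.Agent.H943.TorZ.exists_torZ (by norm_num) (by norm_num) hx hN.prim
  refine h6 η hN.prim (φ c) hx v hv fun κ hκ => ?_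
  have h2 := hv.dims hN.prim κ
  rw [if_neg hκ, zero_add] at h2
  rw [← h2]
  have h3 : κ.val ≠ 0 := fun h => hκ ((ZMod.val_eq_zero κ).1 h)
  exact h1 κ.val (ZMod.val_lt κ) h3

end Cfsg.Agent.H525.E8L
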