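import Cfsg.Agent.H525.E8L.Prs2
import Cfsg.Agent.H525.E8L.Fix

/-!
# Fixed vectors of `L₂(81)` in the third class (helper525, S5921)
-/

set_option autoImplicit false
set_option linter.unusedSectionVars false
set_option maxRecDepth 100000

namespace Cfsg.Agent.H525.E8L

open Matrix
open Cfsg Cfsg.Lie Cfsg.Lie.ChevalleyDatum
open Cfsg.Agent.H943.SL2Rel Cfsg.Agent.H943.RepAdd Cfsg.Agent.H940.E8L
open Cfsg.Agent.H942.E8Alc Cfsg.Agent.H944.RootVals
open Cfsg.Agent.H943.Cert (digs)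

/-- the orbit of a weight modulo 41 under multiplication by 3 -/
def orb41 (κ : ℕ) : ℕ :=
  if κ = 0 then 0 else if [1, 3, 9, 14, 27, 32, 38, 40].contains κ then 1
  else if [2, 6, 13, 18, 23, 28, 35, 39].contains κ then 2
  else if [4, 5, 12, 15, 26, 29, 36, 37].contains κ then 3
  else if [7, 16, 19, 20, 21, 22, 25, 34].contains κ then 4
  else 5

/-- representatives of the orbits -/
def rep41 (o : ℕ) : ℕ := [0, 1, 2, 4, 7, 8].getD o 0

theorem rep_spec : ∀ κ < 41, ∃ j < 8, κ = 3 ^ j * rep41 (orb41 κ) % 41 := by decide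

/-- a functional given by its values on the orbits -/
def orbG (L : List ℤ) (κ : ℕ) : ℤ := L.getD (orb41 κ) 0

theorem sum_orb (H : ℕ → ℤ) : ∑ κ ∈ Finset.range 41, H (orb41 κ) = H 0 + 8 * (H 1 + H 2 + H 3 + H 4 + H 5) := by
  have h1 : ∀ n, orb41 n = orb41 n := fun _ => rfl
  simp only [Finset.sum_range_succ, Finset.sum_range_zero]
  have e : ∀ n o, orb41 n = o → H (orb41 n) = H o := fun n o h => by rw [h]
  rw [e 0 0 rfl, e 1 1 rfl, e 2 2 rfl, e 3 1 rfl, e 4 3 rfl, e 5 3 rfl, e 6 2 rfl, e 7 4 rfl, e 8 5 rfl, e 9 1 rfl,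
    e 10 5 rfl, e 11 5 rfl, e 12 3 rfl, e 13 2 rfl, e 14 1 rfl, e 15 3 rfl, e 16 4 rfl, e 17 5 rfl, e 18 2 rfl,
    e 19 4 rfl, e 20 4 rfl, e 21 4 rfl, e 22 4 rfl, e 23 2 rfl, e 24 5 rfl, e 25 4 rfl, e 26 3 rfl, e 27 1 rfl,
    e 28 2 rfl, e 29 3 rfl, e 30 5 rfl, e 31 5 rfl, e 32 1 rfl, e 33 5 rfl, e 34 4 rfl, e 35 2 rfl, e 36 3 rfl,
    e 37 3 rfl, e 38 1 rfl, e 39 2 rfl, e 40 1 rfl]
  ring

theorem const_orb {d : ℕ → ℕ} (hd : ∀ κ < 41, d (3 * κ % 41) = d κ) {κ : ℕ} (hκ : κ < 41) :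
    d κ = d (rep41 (orb41 κ)) := by
  have h1 : ∀ (j r : ℕ), r < 41 → d (3 ^ j * r % 41) = d r := by
    intro j
    induction j with
    | zero =>
      intro r hr
      rw [pow_zero, one_mul, Nat.mod_eq_of_lt hr]
    | succ j ih =>
      intro r hr
      have h2 := hd (3 ^ j * r % 41) (Nat.mod_lt _ (by norm_num))
      rw [ih r hr] at h2
      rw [← h2]
      congr 1
      rw [pow_succ', mul_assoc]
      exact (Nat.ModEq.mul_left 3 (Nat.mod_modEq (3 ^ j * r) 41)).symm
  obtain ⟨j, -, hj⟩ := rep_spec κ hκ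
  have h2 : rep41 (orb41 κ) < 41 := by
    have h3 : ∀ κ < 41, rep41 (orb41 κ) < 41 := by decide
    exact h3 κ hκ
  conv_lhs => rw [hj]
  exact h1 j _ h2

/-- the functional inequality for all `V_b` -/
def chk2 (f g : List ℤ) : Bool := (List.range 81).all fun b => decide (0 ≤ val (orbF f) b + val41 (orbG g) b)

theorem c1 : chk2 [1, 0, 0, 0, 0, 0, 0, 0, 0] [-1, 0, 0, 0, 0, 0] = true := by decide +kernel
theorem c2 : chk2 [-1, 0, 0, 0, 0, 0, 0, 0, 1] [1, 0, 0, 0, 0, 0] = true := by decide +kernel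
theorem c3 : chk2 [0, 0, 0, 1, 1, 0, 0, 0, 0] [0, 0, 0, -1, 0, 0] = true := by decide +kernel
theorem c4 : chk2 [0, 0, 0, -1, -1, 0, 0, 0, 1] [0, 0, 0, 1, 0, 0] = true := by decide +kernel
theorem c5 : chk2 [0, 1, 1, 0, 0, 0, 0, 0, 0] [0, -1, -1, 0, 0, 0] = true := by decide +kernel
theorem c6 : chk2 [0, -1, -1, 0, 0, 0, 0, 0, 1] [0, 1, 1, 0, 0, 0] = true := by decide +kernel
theorem c7 : chk2 [0, 0, 1, -1, 1, 1, 1, -1, 7] [0, 0, 0, 0, -3, 0] = true := by decide +kernel
theorem c8 : chk2 [0, 0, 0, 0, 0, -1, 0, 1, -1] [0, 0, 0, 0, 1, 0] = true := by decide +kernel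
theorem c9 : chk2 [2, 0, 1, 0, 0, -1, 1, 1, 1] [0, -1, 0, 0, 0, 0] = true := by decide +kernel
theorem c10 : chk2 [0, -1, 0, 0, 0, 0, 0, 1, 0] [0, 1, 0, 0, 0, 0] = true := by decide +kernel
theorem c11 : chk2 [1, 1, 1, 1, 1, 1, 1, 1, 1] [-1, -1, -1, -1, -1, -1] = true := by decide +kernel
theorem c12 : chk2 [-1, -1, -1, -1, -1, -1, -1, -1, -1] [1, 1, 1, 1, 1, 1] = true := by decide +kernel

/-- the pressure functional -/
def fP : List ℤ := [2, 0, 0, 1, -1, -1, 0, 1, -5]
def gP : List ℤ := [0, -1, 0, 0, 2, 0]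

theorem cP : ((List.range 81).all fun b => b == 0 || decide (val (orbF fP) b + val41 (orbG gP) b +
    (if exc b = true then 2 else 0) ≤ 0)) = true := by decide +kernel

/-- the number of trivial factors -/
def fT : List ℤ := [1, 0, 1, 0, 0, 0, 1, 0, 2]
def gT : List ℤ := [1, -1, 0, 0, -1, 0]

theorem cT : ((List.range 81).all fun b => b == 0 || decide (val (orbF fT) b + val41 (orbG gT) b = 0)) = true := by
  decide +kernel

/-- the value of a functional of order 40 on the module -/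
def tv (L : List ℤ) : ℤ := 8 * orbF L 0 + rsum (fun j => orbF L (2 * j)) Y3

theorem orbF_symm : ∀ κ < 80, orbF fP ((80 - κ) % 80) = orbF fP κ := by decide +kernel
theorem orbG_symm : ∀ κ < 41, orbG gP ((41 - κ) % 41) = orbG gP κ := by decide +kernel

section

variable {F : Type} [Field F] [Fintype F] [DecidableEq F] [CharP F 3] [DecidableEq KK] (hcard : Fintype.card F = 81)
  (ι : F →+* KK)
  (φ : SpecialLinearGroup (Fin 2) F →* G8)
  (hk : ∀ g, φ g = 1 ↔ g ∈ Subgroup.center (SpecialLinearGroup (Fin 2) F))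
  (lam : Fˣ) (hlam : ∀ x, x ∈ Subgroup.zpowers lam)
  {c : SpecialLinearGroup (Fin 2) F} {η : KK} (hN : Non41 ι hcard c η)

include hk in
theorem eig_cz (μ : KK) : eig (rK φ) (c * h (-1)) μ = eig (rK φ) c μ := by
  apply eig_congr
  rw [map_mul, rK_neg φ hk, mul_one]

/-- the multiplicities of the weights of order 41 -/
theorem mult41 (hN : Non41 ι hcard c η) : ∃ v : Fin 8 → ZMod 41,
    ms chevE8 8 v = (ms chevE8 8 v).map (fun a => 3 * a) ∧ ∀ κ : ℕ, κ < 41 →
      Module.finrank KK (eig (rK φ) c (η ^ κ)) = (if κ = 0 then 8 else 0) + (ms chevE8 8 v).count (κ : ZMod 41) := by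
  have hfac : Fact (Nat.Prime 3) := ⟨Nat.prime_three⟩
  have hx : (φ c) ^ 41 = 1 := by rw [← map_pow, hN.pow, map_one]
  obtain ⟨v, hv, hd⟩ := Cfsg.Agent.H943.TorDim.exists_vals_dim Cfsg.Agent.H942.E8Tab.e8T 3 (F := ZMod 3) (x := φ c)
    (N := 41) (by norm_num) (by norm_num) hx hN.prim
  refine ⟨v, ?_, fun κ hκ => ?_⟩
  · have h1 := hv.frob
    rw [Nat.card_zmod] at h1
    exact h1
  · have h1 := hd (η ^ κ)
    have h2 : Module.finrank KK (eig (rK φ) c (η ^ κ)) = _ := h1
    rw [h2, Multiset.count_add]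
    congr 1
    · rw [Multiset.count_replicate]
      have h3 : (1 : KK) = η ^ κ ↔ κ = 0 := by
        constructor
        · intro h4
          have h5 := hN.prim.dvd_of_pow_eq_one κ h4.symm
          exact Nat.eq_zero_of_dvd_of_lt h5 hκ
        · rintro rfl
          rw [pow_zero]
      simp only [h3]
      rfl
    · have hinj : Function.Injective fun b : ZMod 41 => η ^ b.val := by
        intro a b hab
        exact ZMod.val_injective 41 (hN.prim.pow_inj (ZMod.val_lt a) (ZMod.val_lt b) hab)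
      have h3 := Multiset.count_map_eq_count' (fun b : ZMod 41 => η ^ b.val) (ms chevE8 8 v) hinj (κ : ZMod 41)
      have h4 : (κ : ZMod 41).val = κ := by rw [ZMod.val_natCast, Nat.mod_eq_of_lt hκ]
      simp only [h4] at h3
      exact h3

include hk hlam in
/-- the third class -/
theorem fix3 (hN : Non41 ι hcard c η) (hE : Enum41Stmt) (hT : TorZ (ι lam ^ 2) (φ (h lam)) 40 (vecL 40 Y3)) :
    ¬ NoFix (rK φ) := by
  obtain ⟨v, hinv, hd⟩ := mult41 hcard ι φ hN
  obtain ⟨d, hdd⟩ : ∃ d : ℕ → ℕ, ∀ κ, Module.finrank KK (eig (rK φ) c (η ^ κ)) = d κ := ⟨_, fun κ => rfl⟩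
  have h3inj : Function.Injective fun a : ZMod 41 => 3 * a := by
    intro a b hab
    have h1 : ∀ a b : ZMod 41, 3 * a = 3 * b → a = b := by decide
    exact h1 a b hab
  have hd3 : ∀ κ < 41, d (3 * κ % 41) = d κ := by
    intro κ hκ
    rw [← hdd, ← hdd, hd κ hκ, hd _ (Nat.mod_lt _ (by norm_num))]
    congr 1
    · have h1 : 3 * κ % 41 = 0 ↔ κ = 0 := by omega
      simp only [h1]
    · have h1 : ((3 * κ % 41 : ℕ) : ZMod 41) = 3 * (κ : ZMod 41) := by
        rw [ZMod.natCast_mod]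
        push_cast
        rfl
      rw [h1]
      conv_lhs => rw [hinv]
      exact Multiset.count_map_eq_count' (fun a : ZMod 41 => 3 * a) (ms chevE8 8 v) h3inj (κ : ZMod 41)
  -- the value of the combined functional
  have hval : ∀ L M : List ℤ, (RF ι lam hcard hN (orbF L) (orbG M)).psi (rK φ) = tv L +
      (M.getD 0 0 * d 0 + 8 * (M.getD 1 0 * d 1 + M.getD 2 0 * d 2 + M.getD 3 0 * d 4 + M.getD 4 0 * d 7 +
        M.getD 5 0 * d 8)) := by
    intro L M
    rw [RF_eq, fun_rK hcard ι φ hlam hT _ (orbF_odd _)]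
    congr 1
    rw [Finset.sum_congr rfl fun κ _ => by rw [eig_cz φ hk]]
    have h1 : ∀ κ ∈ Finset.range 41, orbG M κ * (Module.finrank KK (eig (rK φ) c (η ^ κ)) : ℤ) =
        (fun o => M.getD o 0 * (d (rep41 o) : ℤ)) (orb41 κ) := by
      intro κ hκ
      rw [hdd κ, const_orb hd3 (Finset.mem_range.1 hκ)]
      rfl
    refine (Finset.sum_congr rfl h1).trans ((sum_orb fun o => M.getD o 0 * (d (rep41 o) : ℤ)).trans ?_)
    rfl
  have hpos : ∀ L M : List ℤ, chk2 L M = true → 0 ≤ tv L +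
      (M.getD 0 0 * d 0 + 8 * (M.getD 1 0 * d 1 + M.getD 2 0 * d 2 + M.getD 3 0 * d 4 + M.getD 4 0 * d 7 +
        M.getD 5 0 * d 8)) := by
    intro L M hLM
    rw [← hval]
    exact RF_nonneg ι hcard hlam hN (orbF L) (orbG M) (fun b hb => of_decide_eq_true (all81 hLM hb)) _ (rK φ) rfl
  have t1 : tv [1, 0, 0, 0, 0, 0, 0, 0, 0] = 16 := by decide +kernel
  have t2 : tv [-1, 0, 0, 0, 0, 0, 0, 0, 1] = -16 := by decide +kernel
  have t3 : tv [0, 0, 0, 1, 1, 0, 0, 0, 0] = 48 := by decide +kernel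
  have t4 : tv [0, 0, 0, -1, -1, 0, 0, 0, 1] = -48 := by decide +kernel
  have t5 : tv [0, 1, 1, 0, 0, 0, 0, 0, 0] = 120 := by decide +kernel
  have t6 : tv [0, -1, -1, 0, 0, 0, 0, 0, 1] = -120 := by decide +kernel
  have t7 : tv [0, 0, 1, -1, 1, 1, 1, -1, 7] = 56 := by decide +kernel
  have t8 : tv [0, 0, 0, 0, 0, -1, 0, 1, -1] = -16 := by decide +kernel
  have t9 : tv [2, 0, 1, 0, 0, -1, 1, 1, 1] = 72 := by decide +kernel
  have t10 : tv [0, -1, 0, 0, 0, 0, 0, 1, 0] = -64 := by decide +kernel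
  have t11 : tv [1, 1, 1, 1, 1, 1, 1, 1, 1] = 248 := by decide +kernel
  have t12 : tv [-1, -1, -1, -1, -1, -1, -1, -1, -1] = -248 := by decide +kernel
  have tP : tv fP = 32 := by decide +kernel
  have tT : tv fT = 72 := by decide +kernel
  have p1 := hpos _ _ c1
  have p2 := hpos _ _ c2
  have p3 := hpos _ _ c3
  have p4 := hpos _ _ c4
  have p5 := hpos _ _ c5
  have p6 := hpos _ _ c6
  have p7 := hpos _ _ c7
  have p8 := hpos _ _ c8
  have p9 := hpos _ _ c9
  have p10 := hpos _ _ c10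
  have p11 := hpos _ _ c11
  have p12 := hpos _ _ c12
  simp only [List.getD_cons_zero, List.getD_cons_succ] at p1 p2 p3 p4 p5 p6 p7 p8 p9 p10 p11 p12
  rw [t1] at p1
  rw [t2] at p2
  rw [t3] at p3
  rw [t4] at p4
  rw [t5] at p5
  rw [t6] at p6
  rw [t7] at p7
  rw [t8] at p8
  rw [t9] at p9
  rw [t10] at p10
  rw [t11] at p11
  rw [t12] at p12
  have q0 : d 0 = 16 := by omega
  have q3 : d 4 = 6 := by omega
  have q4 : d 7 = 2 := by omega
  have q12 : d 1 + d 2 = 15 := by omega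
  have q5 : d 8 = 6 := by omega
  have q1 : d 1 = 8 ∨ d 1 = 9 := by omega
  have q1' : d 1 = 8 := by
    rcases q1 with q1 | q1
    · exact q1
    · exfalso
      have q2 : d 2 = 6 := by omega
      refine hE v hinv ⟨?_, ?_, ?_, ?_, ?_, ?_⟩
      · have h1 := hd 0 (by norm_num)
        rw [if_pos rfl, Nat.cast_zero] at h1
        rw [hdd] at h1
        omega
      · have h1 := hd 1 (by norm_num)
        rw [if_neg (by norm_num), Nat.cast_one] at h1
        rw [hdd] at h1
        push_cast at h1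
        omega
      · have h1 := hd 2 (by norm_num)
        rw [if_neg (by norm_num)] at h1
        rw [hdd] at h1
        push_cast at h1
        omega
      · have h1 := hd 4 (by norm_num)
        rw [if_neg (by norm_num)] at h1
        rw [hdd] at h1
        push_cast at h1
        omega
      · have h1 := hd 7 (by norm_num)
        rw [if_neg (by norm_num)] at h1
        rw [hdd] at h1
        push_cast at h1
        omega
      · have h1 := hd 8 (by norm_num)
        rw [if_neg (by norm_num)] at h1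
        rw [hdd] at h1
        push_cast at h1
        omega
  intro hfix
  -- a trivial composition factor
  have htriv := exists_triv ι hcard hlam hN (orbF fT) (orbG gT) (fun b hb hb0 => by
    have h1 := all81 cT hb
    simp only [Bool.or_eq_true, beq_iff_eq, hb0, false_or, decide_eq_true_eq] at h1
    exact h1) _ (rK φ) rfl (by
      rw [hval, tT]
      show (72 : ℤ) + (1 * d 0 + 8 * (-1 * d 1 + 0 * d 2 + 0 * d 4 + -1 * d 7 + 0 * d 8)) ≠ 0
      omega)
  have h1 := press2 ι (rK φ) hcard hlam hN (orbF fP) (orbG gP) (D := 2) (by norm_num) (by decide) (fun b hb hb0 => by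
    have h1 := all81 cP hb
    simp only [Bool.or_eq_true, beq_iff_eq, hb0, false_or, decide_eq_true_eq] at h1
    exact h1) orbF_symm orbG_symm (formB_inv φ) (fun y hy => by
      apply formB_nd
      intro x
      have hs : ∀ x y, formB x y = formB y x := by
        intro x y
        rw [formB_apply, formB_apply, Matrix.dotProduct_mulVec, ← Matrix.mulVec_transpose, formJ_spec.1, dotProduct_comm]
      rw [hs]
      exact hy x) htriv hfix
  rw [hval, tP] at h1
  have h2 : (32 : ℤ) + (0 * d 0 + 8 * (-1 * d 1 + 0 * d 2 + 0 * d 4 + 2 * d 7 + 0 * d 8)) ≤ -2 := h1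
  omega

end

/-- **the third class** -/
theorem fixThree (hS : NonSplitStmt) (hE : Enum41Stmt) : FixThree := by
  intro F _ _ hcard ι φ hk lam hlam hT
  classical
  have hch := charP3 hcard
  obtain ⟨c, η, hN⟩ := hS F KK ι hcard
  exact fix3 hcard ι φ hk lam hlam hN hE hT

end Cfsg.Agent.H525.E8L
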